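import Cfsg.Agent.H276.IF.Mid
import Cfsg.Agent.H178.IFO.MI
import Cfsg.Agent.H886.IF.Eight
import Cfsg.Agent.H989.Fx.Hc
import Cfsg.Agent.H989.Fx.Cls

/-!
# S5719, orthogonal groups, `q` odd, dimension at least 8: CLAIM 0 (helper94)

`claim0` : the preimage of `A` contains no involution whose `(-1)`-space or whose fixed space is of dimension two.
-/

set_option autoImplicit false
set_option linter.unusedSectionVars false
set_option linter.unusedSimpArgs false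

namespace Cfsg.Agent.H94.CZ

open QuadraticMap Cfsg.Agent.LieClassical Cfsg.Agent.LieClassical.OrthCore Cfsg.Agent.LieClassical.OrthTrans
  Cfsg.Agent.LieClassical.OrthSimple Cfsg.Agent.AutOrth.SemiSim Cfsg.Agent.AutOrth.Gen
  Cfsg.Agent.H989.Gs.Gen Cfsg.Agent.H989.Fx
open Cfsg.Agent.UGT.U2.FOne.Orth (Four)
open Cfsg.Agent.H276.IF (Ns EB nondeg_QU EB_comm EB_fix EB_le_of finite_E)
open Cfsg.Agent.H325.IF (Vm Vp mem_Vm mem_Vp isCompl polar_Vm_Vp)
open Cfsg.Agent.H209.Fxy Cfsg.Agent.H112.Row2.OrthExt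
open Module (finrank)

variable {F V : Type*} [Field F] [AddCommGroup V] [Module F V] {Q : QuadraticForm F V}

theorem ns_Vm (h2 : (2 : F) ≠ 0) (hQ : Nondeg Q) {t : ↥(E Q)} (ht : t * t = 1) : Ns Q (Vm t) := by
  intro x hx h
  refine hQ x fun y => ?_
  have hy : y ∈ Vm t ⊔ Vp t := by rw [(isCompl h2 ht).codisjoint.eq_top]; exact Submodule.mem_top
  obtain ⟨a, ha, b, hb, rfl⟩ := Submodule.mem_sup.1 hy
  rw [polar_add_right, h a ha, polar_Vm_Vp h2 hx hb, add_zero]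

theorem ns_Vp (h2 : (2 : F) ≠ 0) (hQ : Nondeg Q) {t : ↥(E Q)} (ht : t * t = 1) : Ns Q (Vp t) := by
  intro x hx h
  refine hQ x fun y => ?_
  have hy : y ∈ Vm t ⊔ Vp t := by rw [(isCompl h2 ht).codisjoint.eq_top]; exact Submodule.mem_top
  obtain ⟨a, ha, b, hb, rfl⟩ := Submodule.mem_sup.1 hy
  rw [polar_add_right, h b hb, polar_comm, polar_Vm_Vp h2 ha hx, add_zero]

/-- **MI** in a nondegenerate subspace -/
theorem mi_D [Finite F] [FiniteDimensional F V] (h2 : (2 : F) ≠ 0) {D : Submodule F V} (hD : Ns Q D)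
    (h6 : 6 ≤ finrank F D) (H : Subgroup ↥(E (QU Q D))) (hH : H ≠ ⊤) :
    (Nat.card F - 1) * Nat.card F ^ (finrank F D - 4) ≤ H.index := by
  have hG : Good (QU Q D) := OrthFinite.good_of_finite (nondeg_QU hD) (by omega)
  have h1 := Cfsg.Agent.H178.IFO.mi hG h6 h2 (H := H.map (E (QU Q D)).subtype) (by
    intro hle
    apply hH
    rw [eq_top_iff]
    rintro g -
    obtain ⟨k, hk, hkg⟩ := hle g.2
    rwa [← Subtype.ext hkg])
  have h3 : (H.map (E (QU Q D)).subtype).relIndex (E (QU Q D)) = H.index := by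
    rw [Subgroup.relIndex, Subgroup.subgroupOf,
      Subgroup.comap_map_eq_self_of_injective (Subgroup.subtype_injective _)]
  rwa [h3] at h1

theorem three_le [Finite F] (h2 : (2 : F) ≠ 0) : 3 ≤ Nat.card F := by
  have h3 := Finite.one_lt_card (α := F)
  by_contra hcon
  have h4 : Nat.card F = 2 := by omega
  apply h2
  have := Fintype.ofFinite F
  have h5 : CharP F 2 := by
    have h6 : Fintype.card F = 2 := by rw [← Nat.card_eq_fintype_card, h4]
    obtain ⟨p, hp⟩ := CharP.exists F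
    have h7 : p.Prime := CharP.char_is_prime F p
    have : Fact p.Prime := ⟨h7⟩
    obtain ⟨n, hn⟩ := FiniteField.card F p
    rw [h6] at hn
    have h8 : p ∣ 2 := by rw [hn.2]; exact dvd_pow_self p n.ne_zero
    have h9 : p = 2 := (Nat.prime_dvd_prime_iff_eq h7 Nat.prime_two).1 h8
    rwa [h9] at hp
  exact_mod_cast CharP.cast_eq_zero F 2

/-- the arithmetic -/
theorem arith {q j r : ℕ} (hq : 3 ≤ q) (h : r ^ 5 < q ^ (2 * (j + 6))) : r < (q - 1) * q ^ (j + 2) := by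
  by_contra hcon
  push Not at hcon
  have h1 : ((q - 1) * q ^ (j + 2)) ^ 5 ≤ r ^ 5 := Nat.pow_le_pow_left hcon 5
  have h3 : q ≤ (q - 1) ^ 2 := by
    obtain ⟨k, rfl⟩ : ∃ k, q = k + 3 := ⟨q - 3, by omega⟩
    rw [show k + 3 - 1 = k + 2 by omega]
    nlinarith
  have h4 : q ^ 2 ≤ (q - 1) ^ 5 := by
    calc q ^ 2 ≤ ((q - 1) ^ 2) ^ 2 := Nat.pow_le_pow_left h3 2
      _ = (q - 1) ^ 4 := by ring
      _ ≤ (q - 1) ^ 5 := Nat.pow_le_pow_right (by omega) (by norm_num)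
  have h5 : q ^ (2 * (j + 6)) ≤ ((q - 1) * q ^ (j + 2)) ^ 5 := by
    calc q ^ (2 * (j + 6)) ≤ q ^ (2 + (j + 2) * 5) := Nat.pow_le_pow_right (by omega) (by omega)
      _ = q ^ 2 * (q ^ (j + 2)) ^ 5 := by rw [pow_add, pow_mul]
      _ ≤ (q - 1) ^ 5 * (q ^ (j + 2)) ^ 5 := Nat.mul_le_mul_right _ h4
      _ = _ := by rw [mul_pow]
  omega

theorem S_neg_neg {u w : V} (hu : Q u = 0) (hw : polar Q u w = 0) : S Q (-u) (-w) = S Q u w := by
  have hu' : Q (-u) = 0 := by rw [QuadraticMap.map_neg, hu]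
  have hw' : polar Q (-u) (-w) = 0 := by rw [polar_neg_left, polar_neg_right, hw, neg_zero, neg_zero]
  apply ext_ap
  intro v
  rw [S_ap hu hw, S_ap hu' hw', polar_neg_left, polar_neg_left, QuadraticMap.map_neg]
  module

/-- an element acting as `-1` on `D` commutes with `E(D)` -/
theorem EB_comm_neg {D : Submodule F V} {z : ↥(E Q)} (hz : ∀ u ∈ D, ap z u = -u) : ∀ b ∈ EB Q D, z * b = b * z := by
  have h1 : EB Q D ≤ Subgroup.centralizer ({z} : Set ↥(E Q)) := by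
    rw [EB, Subgroup.closure_le]
    rintro _ ⟨u, hu, w, hw, hQu, hp, rfl⟩
    rw [SetLike.mem_coe, Subgroup.mem_centralizer_singleton_iff]
    have h3 := S_conj z u w
    rw [hz u hu, hz w hw, S_neg_neg hQu hp] at h3
    rw [← h3, inv_mul_cancel_right, h3]
  intro b hb
  exact (Subgroup.mem_centralizer_singleton_iff.1 (h1 hb)).symm

section step

variable {T : Type*} [Group T] [Finite T] [IsSimpleGroup T] [Finite F] [FiniteDimensional F V]

/-- `E(D)` is in the preimage of `A` -/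
theorem EB_le (h2 : (2 : F) ≠ 0) (hQ : Nondeg Q) (hN : 8 ≤ finrank F V) (hna : ∃ a b : T, a * b ≠ b * a)
    {A : Subgroup T} {Γ : Subgroup (MulAut T)} (h : IF A Γ) (π : ↥(E Q) →* T) (hπ : Function.Surjective π)
    (hk : KerScalar π) {t : ↥(E Q)} (htA : t ∈ A.comap π) (ht : t * t = 1) {D D2 : Submodule F V}
    (hD : (D = Vm t ∧ D2 = Vp t) ∨ (D = Vp t ∧ D2 = Vm t)) (hr : finrank F D2 = 2) : EB Q D ≤ A.comap π := by
  have hfin := finite_E Q
  have hG : Good Q := OrthFinite.good_of_finite hQ (by omega)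
  have hc : IsCompl D D2 := by
    rcases hD with ⟨rfl, rfl⟩ | ⟨rfl, rfl⟩
    · exact isCompl h2 ht
    · exact (isCompl h2 ht).symm
  have ho : ∀ u ∈ D, ∀ w ∈ D2, polar Q u w = 0 := by
    rcases hD with ⟨rfl, rfl⟩ | ⟨rfl, rfl⟩
    · intro u hu w hw
      exact polar_Vm_Vp h2 hu hw
    · intro u hu w hw
      rw [polar_comm]
      exact polar_Vm_Vp h2 hw hu
  have hns : Ns Q D := by
    rcases hD with ⟨rfl, rfl⟩ | ⟨rfl, rfl⟩
    · exact ns_Vm h2 hQ ht
    · exact ns_Vp h2 hQ ht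
  have hsum := Submodule.finrank_add_eq_of_isCompl hc
  obtain ⟨j, hj⟩ : ∃ j, finrank F V = j + 8 := ⟨finrank F V - 8, by omega⟩
  have hfD : finrank F D = j + 6 := by omega
  have hcls : (Subgroup.centralizer ({t} : Set ↥(E Q))).index ≤ Nat.card F ^ (2 * (j + 6)) := by
    rcases hD with ⟨rfl, rfl⟩ | ⟨rfl, rfl⟩
    · have h1 := cls_le h2 hG (by omega) ht hfD
      rw [hj, show j + 8 - (j + 6) = 2 by omega, mul_comm] at h1
      exact h1
    · have h1 := cls_le h2 hG (by omega) ht hr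
      rw [hj, show j + 8 - 2 = j + 6 by omega] at h1
      exact h1
  -- `π t ≠ 1`
  have hDne : D ≠ ⊥ := by
    rintro rfl
    rw [finrank_bot] at hfD
    omega
  have hD2ne : D2 ≠ ⊥ := by
    rintro rfl
    rw [finrank_bot] at hr
    omega
  have hmne : Vm t ≠ ⊥ := by
    rcases hD with ⟨rfl, rfl⟩ | ⟨rfl, rfl⟩ <;> assumption
  have hpne : Vp t ≠ ⊥ := by
    rcases hD with ⟨rfl, rfl⟩ | ⟨rfl, rfl⟩ <;> assumption
  obtain ⟨x, hx, hx0⟩ := (Submodule.ne_bot_iff _).1 hmne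
  obtain ⟨y, hy, hy0⟩ := (Submodule.ne_bot_iff _).1 hpne
  rw [mem_Vm] at hx
  rw [mem_Vp] at hy
  have ht1 : π t ≠ 1 := by
    intro h1
    obtain ⟨c, hc'⟩ := hk t h1
    have k1 : ap t x = c • x := hc' x
    have k2 : ap t y = c • y := hc' y
    rw [hy] at k2
    have k3 : (c - 1) • y = 0 := by rw [sub_smul, ← k2, one_smul, sub_self]
    have k4 : c = 1 := sub_eq_zero.1 ((smul_eq_zero.1 k3).resolve_right hy0)
    rw [hx, k4, one_smul] at k1
    have k5 : (2 : F) • x = 0 := by rw [two_smul]; nth_rewrite 1 [← k1]; exact neg_add_cancel x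
    exact hx0 ((smul_eq_zero.1 k5).resolve_left h2)
  have hcomm : ∀ b ∈ EB Q D, t * b = b * t := by
    rcases hD with ⟨rfl, rfl⟩ | ⟨rfl, rfl⟩
    · exact EB_comm_neg fun u hu => mem_Vm.1 hu
    · exact EB_comm fun u hu => mem_Vp.1 hu
  have h4 := Cfsg.Agent.H847.IF.lift_E2 h hna π hπ (t := t) htA ht1 (by rw [ht, map_one]) (B := EB Q D)
    (fun b hb => by rw [hcomm b hb])
  refine EB_le_of hc ho (fun H hH => mi_D h2 hns (by omega) H hH) ?_
  rw [hfD, show j + 6 - 4 = j + 2 by omega]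
  exact arith (three_le h2) (lt_of_lt_of_le h4 hcls)

omit [FiniteDimensional F V] in
/-- a quadruple in `D` -/
theorem exists_frame {D : Submodule F V} (hD : Ns Q D) (h6 : 6 ≤ finrank F D) :
    ∃ e₁ f₁ e₂ f₂ : V, Four Q e₁ f₁ e₂ f₂ ∧ e₁ ∈ D ∧ f₁ ∈ D ∧ e₂ ∈ D ∧ f₂ ∈ D := by
  have hG : Good (QU Q D) := OrthFinite.good_of_finite (nondeg_QU hD) (by omega)
  obtain ⟨x, y, hxy⟩ := hG.exists_hyp
  obtain ⟨z, w, hzw, p1, p2, p3, p4⟩ := hG.exists_hyp2 hxy
  have hyp : ∀ {a b : D}, Hyp (QU Q D) a b → Hyp Q (a : V) (b : V) := by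
    intro a b hab
    refine ⟨hab.left, hab.right, ?_⟩
    have := hab.pair
    rwa [polar_QU] at this
  rw [polar_QU] at p1 p2 p3 p4
  exact ⟨x, y, z, w, ⟨hyp hxy, hyp hzw, p1, p2, p3, p4⟩, x.2, y.2, z.2, w.2⟩

omit [FiniteDimensional F V] in
/-- a hyperbolic pair in a nondegenerate space of dimension at least three -/
theorem exists_pair {D : Submodule F V} (hD : Ns Q D) (h3 : 3 ≤ finrank F D) :
    ∃ e f : V, Hyp Q e f ∧ e ∈ D ∧ f ∈ D := by
  obtain ⟨w, hw0, hw, -⟩ := OrthFinite.exists_sing_perp (Q := QU Q D) (n := 0) ![] (by omega)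
  obtain ⟨y, hy⟩ := OrthTrans.exists_hyp (nondeg_QU hD) hw hw0
  refine ⟨w, y, ⟨hy.left, hy.right, ?_⟩, w.2, y.2⟩
  have := hy.pair
  rwa [polar_QU] at this

end step

open Cfsg.Agent.LieClassical.SLTwoUnipotent (u l) in
/-- an element of order four -/
def sE (F : Type*) [Field F] : Matrix.SpecialLinearGroup (Fin 2) F := u (-1) * (l (-1))⁻¹ * u (-1)

theorem coe_sE (F : Type*) [Field F] : ((sE F : Matrix.SpecialLinearGroup (Fin 2) F) : Matrix (Fin 2) (Fin 2) F) =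
    !![0, -1; 1, 0] := by
  rw [sE, Cfsg.Agent.LieClassical.SLTwoUnipotent.l_neg, inv_inv, Matrix.SpecialLinearGroup.coe_mul,
    Matrix.SpecialLinearGroup.coe_mul, Cfsg.Agent.LieClassical.SLTwoUnipotent.coe_u,
    Cfsg.Agent.LieClassical.SLTwoUnipotent.coe_l]
  ext i j
  fin_cases i <;> fin_cases j <;> simp [Matrix.mul_apply, Fin.sum_univ_two]

theorem sE_sq (F : Type*) [Field F] : sE F * sE F = -1 := by
  apply Subtype.ext
  change ((sE F * sE F : Matrix.SpecialLinearGroup (Fin 2) F) : Matrix (Fin 2) (Fin 2) F) = _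
  rw [Matrix.SpecialLinearGroup.coe_mul, coe_sE]
  ext i j
  fin_cases i <;> fin_cases j <;> simp [Matrix.mul_apply, Fin.sum_univ_two]

theorem rhoE_sE {D : Submodule F V} {e₁ f₁ e₂ f₂ : V} (h : Four Q e₁ f₁ e₂ f₂) (m1 : e₁ ∈ D) (m2 : f₁ ∈ D)
    (m3 : e₂ ∈ D) (m4 : f₂ ∈ D) : h.rhoE (sE F) ∈ EB Q D := by
  rw [sE, map_mul, map_mul, map_inv, rhoE_u, rhoE_l]
  have h1 : S Q e₁ f₂ ∈ EB Q D := Subgroup.subset_closure ⟨e₁, m1, f₂, m4, h.h1.left, h.ef, rfl⟩
  have h3 : S Q e₂ f₁ ∈ EB Q D := Subgroup.subset_closure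
    ⟨e₂, m3, f₁, m2, h.h2.left, by rw [polar_comm]; exact h.fe, rfl⟩
  exact mul_mem (mul_mem h1 (inv_mem h3)) h1

open Cfsg.Agent.H886.IF8 in
/-- an involution of `E(D)` with a two-dimensional `(-1)`-space -/
theorem exists_inv [Finite F] [FiniteDimensional F V] (h2 : (2 : F) ≠ 0) (hQ : Nondeg Q) (hN : 5 ≤ finrank F V)
    {D : Submodule F V} (hD : Ns Q D) (h6 : 6 ≤ finrank F D) :
    ∃ t ∈ EB Q D, t * t = 1 ∧ finrank F (Vm t) = 2 := by
  obtain ⟨e₁, f₁, e₂, f₂, h, m1, m2, m3, m4⟩ := exists_frame hD h6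
  have hG : Good Q := OrthFinite.good_of_finite hQ hN
  obtain ⟨k1, k2⟩ := inv_two h2 hG h (sE_sq F) (sE_sq F)
  refine ⟨two h (sE F, sE F), ?_, k1, k2⟩
  rw [two_apply]
  exact mul_mem (rhoE_sE h m1 m2 m3 m4) (rhoE_sE h.swap m1 m2 m4 m3)

section main

variable {T : Type*} [Group T] [Finite T] [IsSimpleGroup T] [Finite F] [FiniteDimensional F V]

/-- **CLAIM 0** -/
theorem claim0 (h2 : (2 : F) ≠ 0) (hQ : Nondeg Q) (hN : 8 ≤ finrank F V) (hna : ∃ a b : T, a * b ≠ b * a)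
    {A : Subgroup T} {Γ : Subgroup (MulAut T)} (h : IF A Γ) (π : ↥(E Q) →* T) (hπ : Function.Surjective π)
    (hk : KerScalar π) {t : ↥(E Q)} (htA : t ∈ A.comap π) (ht : t * t = 1)
    (hr : finrank F (Vm t) = 2 ∨ finrank F (Vm t) + 2 = finrank F V) : False := by
  have hc0 := isCompl h2 ht
  have hs0 := Submodule.finrank_add_eq_of_isCompl hc0
  obtain ⟨D, D2, hD, hr2⟩ : ∃ D D2 : Submodule F V, ((D = Vm t ∧ D2 = Vp t) ∨ (D = Vp t ∧ D2 = Vm t)) ∧
      finrank F D2 = 2 := by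
    rcases hr with h1 | h1
    · exact ⟨Vp t, Vm t, Or.inr ⟨rfl, rfl⟩, h1⟩
    · exact ⟨Vm t, Vp t, Or.inl ⟨rfl, rfl⟩, by omega⟩
  have hc : IsCompl D D2 := by
    rcases hD with ⟨rfl, rfl⟩ | ⟨rfl, rfl⟩
    · exact isCompl h2 ht
    · exact (isCompl h2 ht).symm
  have ho : ∀ u ∈ D, ∀ w ∈ D2, polar Q u w = 0 := by
    rcases hD with ⟨rfl, rfl⟩ | ⟨rfl, rfl⟩
    · intro u hu w hw
      exact polar_Vm_Vp h2 hu hw
    · intro u hu w hw
      rw [polar_comm]
      exact polar_Vm_Vp h2 hw hu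
  have hns : Ns Q D := by
    rcases hD with ⟨rfl, rfl⟩ | ⟨rfl, rfl⟩
    · exact ns_Vm h2 hQ ht
    · exact ns_Vp h2 hQ ht
  have hsum := Submodule.finrank_add_eq_of_isCompl hc
  have hE1 : EB Q D ≤ A.comap π := EB_le h2 hQ hN hna h π hπ hk htA ht hD hr2
  obtain ⟨s, hsB, hs, hs2⟩ := exists_inv h2 hQ (by omega) hns (by omega)
  have hE2 : EB Q (Vp s) ≤ A.comap π := EB_le h2 hQ hN hna h π hπ hk (hE1 hsB) hs (Or.inr ⟨rfl, rfl⟩) hs2
  -- `D2 ≤ Vp s`, `Vm s ≤ D`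
  have hD2 : D2 ≤ Vp s := fun x hx => mem_Vp.2 (EB_fix (fun u hu => ho u hu x hx) s hsB)
  have hmD : Vm s ≤ D := by
    intro x hx
    have hx' : x ∈ D ⊔ D2 := by rw [hc.codisjoint.eq_top]; exact Submodule.mem_top
    obtain ⟨a, ha, b, hb, rfl⟩ := Submodule.mem_sup.1 hx'
    have hb0 : b = 0 := by
      refine hQ b fun y => ?_
      have hy : y ∈ D ⊔ D2 := by rw [hc.codisjoint.eq_top]; exact Submodule.mem_top
      obtain ⟨c, hc', d, hd, rfl⟩ := Submodule.mem_sup.1 hy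
      have h1 : polar Q (a + b) d = 0 := polar_Vm_Vp h2 hx (hD2 hd)
      rw [polar_add_left, ho a ha d hd, zero_add] at h1
      rw [polar_add_right, polar_comm, ho c hc' b hb, h1, add_zero]
    rw [hb0, add_zero]
    exact ha
  have hcs := isCompl h2 hs
  -- a hyperbolic pair in `D ∩ Vp s`
  have hnsI : Ns Q (D ⊓ Vp s) := by
    rintro x ⟨hxD, hxp⟩ hx
    refine hQ x fun y => ?_
    have hy : y ∈ D ⊔ D2 := by rw [hc.codisjoint.eq_top]; exact Submodule.mem_top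
    obtain ⟨d, hd, d2, hd2, rfl⟩ := Submodule.mem_sup.1 hy
    have hd' : d ∈ Vm s ⊔ Vp s := by rw [hcs.codisjoint.eq_top]; exact Submodule.mem_top
    obtain ⟨a, ha, b, hb, rfl⟩ := Submodule.mem_sup.1 hd'
    have hbD : b ∈ D := by
      have h1 := D.sub_mem hd (hmD ha)
      rwa [add_sub_cancel_left] at h1
    rw [polar_add_right, ho x hxD d2 hd2, polar_add_right, hx b ⟨hbD, hb⟩, polar_comm,
      polar_Vm_Vp h2 ha hxp, add_zero, add_zero]
  have hfI : 3 ≤ finrank F ↥(D ⊓ Vp s) := by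
    have h1 := Submodule.finrank_sup_add_finrank_inf_eq D (Vp s)
    have h3 : finrank F ↥(D ⊔ Vp s) ≤ finrank F V := Submodule.finrank_le _
    have h4 := Submodule.finrank_add_eq_of_isCompl hcs
    omega
  obtain ⟨e, f, hef, ⟨heD, hep⟩, ⟨hfD, hfp⟩⟩ := exists_pair hnsI hfI
  -- generation
  have gen : ∀ x : V, Q x = 0 → x ∈ D → x ∈ Vp s → ∀ w, polar Q x w = 0 → S Q x w ∈ A.comap π := by
    intro x hx hxD hxp w hw
    have hw' : w ∈ D ⊔ D2 := by rw [hc.codisjoint.eq_top]; exact Submodule.mem_top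
    obtain ⟨a, ha, b, hb, rfl⟩ := Submodule.mem_sup.1 hw'
    have h1 : polar Q x b = 0 := ho x hxD b hb
    have h3 : polar Q x a = 0 := by rwa [polar_add_right, h1, add_zero] at hw
    rw [S_add hx h3 h1]
    exact mul_mem (hE1 (Subgroup.subset_closure ⟨x, hxD, a, ha, hx, h3, rfl⟩))
      (hE2 (Subgroup.subset_closure ⟨x, hxp, b, hD2 hb, hx, h1, rfl⟩))
  have hle : E Q ≤ (A.comap π).map (E Q).subtype := by
    refine Cfsg.Agent.H75.OrthIdx.E_le_of_opp hQ hef ?_ ?_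
    · intro v hv
      rw [Cfsg.Agent.H75.OrthIdx.sg_eq hef.left hv]
      refine ⟨S Q e v, gen e hef.left heD hep v hv, ?_⟩
      rw [S_eq hef.left hv]
      rfl
    · intro v hv
      rw [Cfsg.Agent.H75.OrthIdx.sg_eq hef.right hv]
      refine ⟨S Q f v, gen f hef.right hfD hfp v hv, ?_⟩
      rw [S_eq hef.right hv]
      rfl
  apply h.ne_top
  rw [eq_top_iff]
  rintro x -
  obtain ⟨g, rfl⟩ := hπ x
  obtain ⟨k, hk1, hk2⟩ := hle g.2
  rw [← Subtype.ext hk2]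
  exact hk1

end main

end Cfsg.Agent.H94.CZ
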