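import Cfsg.Agent.ClassicalGeometry.MinIndexMain
import Cfsg.Agent.S0205

/-!
# (K1) for S5719: a subgroup of `PSL₂(q)`, `q` odd, with a nontrivial normal subgroup of odd order

is solvable and of index at least `q + 1`.
-/

set_option autoImplicit false
set_option linter.unusedSectionVars false

namespace Cfsg.Agent.H94.IF

open Matrix OnePoint
open Cfsg.Agent.ClassicalGeometry.SL2Line Cfsg.Agent.ClassicalGeometry.SL2Borel
open Cfsg.Agent.ClassicalGeometry.MinIndexPSL2

section SL

variable {F : Type*} [Field F] [DecidableEq F] [Finite F]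

local notation "SS" => SpecialLinearGroup (Fin 2) F

attribute [local instance] slLineAction

theorem trc_comm (x y : SS) : (x * y) 0 0 + (x * y) 1 1 = (y * x) 0 0 + (y * x) 1 1 := by
  rw [sl_mul_apply, sl_mul_apply, sl_mul_apply, sl_mul_apply]
  ring

theorem trc_conj (g a : SS) : (g * a * g⁻¹) 0 0 + (g * a * g⁻¹) 1 1 = a 0 0 + a 1 1 := by
  rw [trc_comm (g * a) g⁻¹, inv_mul_cancel_left]

/-- an element with `a 1 0 = 0`, `a 0 0 = 1` -/
theorem eq_uni {a : SS} (h0 : a 1 0 = 0) (h1 : a 0 0 = 1) : a = uni (a 0 1) := by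
  have hd := det_eq a
  rw [h0, h1, mul_zero, sub_zero, one_mul] at hd
  apply sl_ext <;> simp only [uni, mk_00, mk_01, mk_10, mk_11]
  · exact h1
  · exact h0
  · exact hd

theorem pow_zero_zero {a : SS} (h0 : a 1 0 = 0) (n : ℕ) : (a ^ n) 1 0 = 0 ∧ (a ^ n) 0 0 = (a 0 0) ^ n := by
  induction n with
  | zero => simp [sl_one_apply]
  | succ n ih =>
    rw [pow_succ, sl_mul_apply, sl_mul_apply, ih.1, ih.2, h0, pow_succ]
    constructor <;> ring

/-- **the characteristic case** -/
theorem borel_case {p : ℕ} [Fact p.Prime] [CharP F p] {a : SS} (ha : a ≠ 1) (hap : a ^ p = 1)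
    {R : Subgroup SS} (h : ∀ g ∈ R, Commute (g * a * g⁻¹) a) :
    ∃ x : OnePoint F, R ≤ MulAction.stabilizer SS x := by
  classical
  -- `a` fixes a point
  have hfix : ∃ x : OnePoint F, a • x = x := by
    have : Finite (OnePoint F) := finite_line
    have hP : IsPGroup p (Subgroup.zpowers a) := by
      intro x
      obtain ⟨k, hk⟩ := Subgroup.mem_zpowers_iff.1 x.2
      refine ⟨1, Subtype.ext ?_⟩
      rw [pow_one, Subgroup.coe_pow, Subgroup.coe_one, ← hk, ← zpow_natCast, ← _root_.zpow_mul, mul_comm, _root_.zpow_mul,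
        zpow_natCast, hap, _root_.one_zpow]
    have hmod := hP.card_modEq_card_fixedPoints (α := OnePoint F)
    rw [card_line] at hmod
    have hpq : p ∣ Nat.card F := by
      have := Fintype.ofFinite F
      rw [Nat.card_eq_fintype_card]
      obtain ⟨n, -, hn⟩ := FiniteField.card F p
      rw [hn]
      exact dvd_pow_self p n.pos.ne'
    have hne : Nat.card (MulAction.fixedPoints (Subgroup.zpowers a) (OnePoint F)) ≠ 0 := by
      intro h0
      rw [h0] at hmod
      have h1 : p ∣ Nat.card F + 1 := (Nat.modEq_zero_iff_dvd).1 hmod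
      have h2 : p ∣ 1 := (Nat.dvd_add_right hpq).1 h1
      exact (Fact.out : p.Prime).one_lt.ne' (Nat.dvd_one.1 h2)
    obtain ⟨x⟩ := (Nat.card_pos_iff.1 (Nat.pos_of_ne_zero hne)).1
    exact ⟨x.1, x.2 ⟨a, Subgroup.mem_zpowers a⟩⟩
  obtain ⟨x, hx⟩ := hfix
  refine ⟨x, fun g hg => ?_⟩
  rw [MulAction.mem_stabilizer_iff]
  obtain ⟨k, rfl⟩ := exists_smul_infty x
  -- everything conjugated by `k`
  obtain ⟨a', ha'⟩ : ∃ a' : SS, a' = k⁻¹ * a * k := ⟨_, rfl⟩
  obtain ⟨g', hg'⟩ : ∃ g' : SS, g' = k⁻¹ * g * k := ⟨_, rfl⟩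
  have ha0 : a' 1 0 = 0 := by
    rw [← sl_smul_infty_eq_iff, ha', mul_smul, mul_smul, hx, inv_smul_smul]
  have hap' : a' ^ p = 1 := by
    have h1 : a' = MulAut.conj k⁻¹ a := by rw [ha', MulAut.conj_apply, inv_inv]
    rw [h1, ← map_pow, hap, map_one]
  have hone : ∀ b : SS, b 1 0 = 0 → b ^ p = 1 → b 0 0 = 1 := by
    intro b hb0 hbp
    have h1 := (pow_zero_zero hb0 p).2
    rw [hbp, sl_one_apply] at h1
    have h2 : (b 0 0 - 1) ^ p = 0 := by
      rw [sub_pow_char, ← h1, one_pow]
      simp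
    exact sub_eq_zero.1 (pow_eq_zero_iff (Fact.out : p.Prime).ne_zero |>.1 h2)
  have hau := eq_uni ha0 (hone a' ha0 hap')
  obtain ⟨b, hb⟩ : ∃ b : F, b = a' 0 1 := ⟨_, rfl⟩
  rw [← hb] at hau
  have hb0 : b ≠ 0 := by
    intro h0
    rw [h0, uni_zero] at hau
    apply ha
    have h1 : a = k * a' * k⁻¹ := by rw [ha']; group
    rw [h1, hau]
    group
  obtain ⟨c, hc⟩ : ∃ c : SS, c = g' * a' * g'⁻¹ := ⟨_, rfl⟩
  have hcomm : Commute c a' := by
    have h1 := h g hg
    have h2 : c = MulAut.conj k⁻¹ (g * a * g⁻¹) := by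
      rw [hc, ha', hg', MulAut.conj_apply]
      group
    have h3 : a' = MulAut.conj k⁻¹ a := by rw [ha', MulAut.conj_apply, inv_inv]
    rw [h2, h3]
    exact h1.map (MulAut.conj k⁻¹).toMonoidHom
  have hcp : c ^ p = 1 := by
    have h1 : c = MulAut.conj g' a' := by rw [hc, MulAut.conj_apply]
    rw [h1, ← map_pow, hap', map_one]
  have hc0 : c 1 0 = 0 := by
    have h1 : (c * a') 0 0 = (a' * c) 0 0 := by rw [hcomm.eq]
    rw [hau] at h1
    simp only [sl_mul_apply, uni, mk_00, mk_01, mk_10, mk_11] at h1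
    have h2 : b * c 1 0 = 0 := by linear_combination -h1
    exact (mul_eq_zero.1 h2).resolve_left hb0
  have hcu := eq_uni hc0 (hone c hc0 hcp)
  have hgc : g' * a' = c * g' := by rw [hc]; group
  have hg0 : g' 1 0 = 0 := by
    rw [hau, hcu] at hgc
    have h1 : (g' * uni b) 1 1 = (uni (c 0 1) * g') 1 1 := by rw [hgc]
    simp only [sl_mul_apply, uni, mk_00, mk_01, mk_10, mk_11] at h1
    have h2 : g' 1 0 * b = 0 := by linear_combination h1
    exact (mul_eq_zero.1 h2).resolve_right hb0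
  have h1 : g' • (∞ : OnePoint F) = ∞ := (sl_smul_infty_eq_iff g').2 hg0
  have h2 : g = k * g' * k⁻¹ := by rw [hg']; group
  rw [h2, mul_smul, mul_smul, inv_smul_smul, h1]

/-- the stabiliser of a point is solvable -/
theorem solvable_of_le_stab {R : Subgroup SS} {x : OnePoint F} (h : R ≤ MulAction.stabilizer SS x) :
    Group.IsSolvable R := by
  obtain ⟨k, rfl⟩ := exists_smul_infty x
  have h0 : ∀ g : R, (k⁻¹ * g * k : SS) 1 0 = 0 := by
    intro g
    rw [← sl_smul_infty_eq_iff, mul_smul, mul_smul, MulAction.mem_stabilizer_iff.1 (h g.2), inv_smul_smul]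
  have hd : ∀ g : R, (k⁻¹ * g * k : SS) 0 0 * (k⁻¹ * g * k : SS) 1 1 = 1 := by
    intro g
    have h1 := det_eq (k⁻¹ * g * k : SS)
    rw [h0 g, mul_zero, sub_zero] at h1
    exact h1
  have hne : ∀ g : R, (k⁻¹ * g * k : SS) 0 0 ≠ 0 := by
    intro g h1
    have h2 := hd g
    rw [h1, zero_mul] at h2
    exact zero_ne_one h2
  have hmul : ∀ g g' : R, (k⁻¹ * (g * g' : R) * k : SS) 0 0 = (k⁻¹ * g * k : SS) 0 0 * (k⁻¹ * g' * k : SS) 0 0 := by
    intro g g'
    have h1 : (k⁻¹ * (g * g' : R) * k : SS) = (k⁻¹ * g * k : SS) * (k⁻¹ * g' * k : SS) := by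
      rw [Subgroup.coe_mul]
      group
    rw [h1, sl_mul_apply, h0 g', mul_zero, add_zero]
  let f : R →* Fˣ :=
    { toFun := fun g => Units.mk0 _ (hne g)
      map_one' := by
        apply Units.ext
        rw [Units.val_mk0, Subgroup.coe_one, mul_one, inv_mul_cancel, sl_one_apply]
        simp
      map_mul' := fun g g' => by
        apply Units.ext
        rw [Units.val_mk0, Units.val_mul, Units.val_mk0, Units.val_mk0]
        exact hmul g g' }
  have hker : ∀ g : f.ker, ∃ b : F, (k⁻¹ * ((g : R) : SS) * k : SS) = uni b := by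
    intro g
    refine ⟨_, eq_uni (h0 g) ?_⟩
    have h1 := congrArg Units.val ((MonoidHom.mem_ker).1 g.2)
    exact h1
  have hcomm : IsMulCommutative f.ker := by
    refine ⟨⟨fun g g' => ?_⟩⟩
    obtain ⟨b, hb⟩ := hker g
    obtain ⟨b', hb'⟩ := hker g'
    apply Subtype.ext
    apply Subtype.ext
    have h1 : ((g : R) : SS) = k * uni b * k⁻¹ := by rw [← hb]; group
    have h2 : ((g' : R) : SS) = k * uni b' * k⁻¹ := by rw [← hb']; group
    have h3 : uni b * uni b' = uni b' * uni b := by rw [← uni_add, ← uni_add, add_comm]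
    show ((g : R) : SS) * ((g' : R) : SS) = ((g' : R) : SS) * ((g : R) : SS)
    rw [h1, h2]
    calc k * uni b * k⁻¹ * (k * uni b' * k⁻¹) = k * (uni b * uni b') * k⁻¹ := by group
      _ = k * (uni b' * uni b) * k⁻¹ := by rw [h3]
      _ = _ := by group
  have h1 : Group.IsSolvable f.ker := Group.isSolvable_of_comm fun x y => hcomm.is_comm.comm x y
  exact Group.isSolvable_of_ker_le_range f.ker.subtype f (by rw [Subgroup.range_subtype])

/-- the shape of an element commuting with a nonscalar one -/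
theorem exists_slope {a b : SS} (ha : (a 0 0 + a 1 1) ^ 2 ≠ 4) (h : Commute b a) :
    ∃ s : F, b 0 1 = s * a 0 1 ∧ b 1 0 = s * a 1 0 ∧ b 0 0 - b 1 1 = s * (a 0 0 - a 1 1) := by
  have e00 : (b * a) 0 0 = (a * b) 0 0 := by rw [h.eq]
  have e01 : (b * a) 0 1 = (a * b) 0 1 := by rw [h.eq]
  have e10 : (b * a) 1 0 = (a * b) 1 0 := by rw [h.eq]
  simp only [sl_mul_apply] at e00 e01 e10
  have hda := det_eq a
  by_cases h01 : a 0 1 = 0
  · by_cases h10 : a 1 0 = 0
    · have hne : a 0 0 - a 1 1 ≠ 0 := by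
        intro h0
        apply ha
        have h1 : a 0 0 = a 1 1 := sub_eq_zero.1 h0
        rw [h01, zero_mul, sub_zero, h1] at hda
        rw [h1]
        linear_combination 4 * hda
      refine ⟨(b 0 0 - b 1 1) / (a 0 0 - a 1 1), ?_, ?_, ?_⟩
      · rw [h01, mul_zero]
        rw [h01] at e01
        have h1 : b 0 1 * (a 0 0 - a 1 1) = 0 := by linear_combination -e01
        exact (mul_eq_zero.1 h1).resolve_right hne
      · rw [h10, mul_zero]
        rw [h10] at e10
        have h1 : b 1 0 * (a 0 0 - a 1 1) = 0 := by linear_combination e10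
        exact (mul_eq_zero.1 h1).resolve_right hne
      · rw [div_mul_cancel₀ _ hne]
    · refine ⟨b 1 0 / a 1 0, ?_, ?_, ?_⟩
      · rw [div_mul_eq_mul_div, eq_div_iff h10]
        linear_combination e00
      · rw [div_mul_cancel₀ _ h10]
      · rw [div_mul_eq_mul_div, eq_div_iff h10]
        linear_combination -e10
  · refine ⟨b 0 1 / a 0 1, ?_, ?_, ?_⟩
    · rw [div_mul_cancel₀ _ h01]
    · rw [div_mul_eq_mul_div, eq_div_iff h01]
      linear_combination -e00
    · rw [div_mul_eq_mul_div, eq_div_iff h01]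
      linear_combination e01

theorem slope_rel {a b : SS} {s : F} (h1 : b 0 1 = s * a 0 1) (h2 : b 1 0 = s * a 1 0)
    (h3 : b 0 0 - b 1 1 = s * (a 0 0 - a 1 1)) :
    (b 0 0 + b 1 1) ^ 2 = s ^ 2 * ((a 0 0 + a 1 1) ^ 2 - 4) + 4 := by
  have hda := det_eq a
  have hdb := det_eq b
  have e1 : (b 0 0 - b 1 1) ^ 2 = s ^ 2 * (a 0 0 - a 1 1) ^ 2 := by rw [h3]; ring
  have e2 : b 0 1 * b 1 0 = s ^ 2 * (a 0 1 * a 1 0) := by rw [h1, h2]; ring
  linear_combination e1 + 4 * e2 - 4 * s ^ 2 * hda + 4 * hdb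

theorem eq_of_slope {a b b' : SS} {s : F} (hF : (2 : F) ≠ 0) (h1 : b 0 1 = s * a 0 1) (h2 : b 1 0 = s * a 1 0)
    (h3 : b 0 0 - b 1 1 = s * (a 0 0 - a 1 1)) (h1' : b' 0 1 = s * a 0 1) (h2' : b' 1 0 = s * a 1 0)
    (h3' : b' 0 0 - b' 1 1 = s * (a 0 0 - a 1 1)) (h4 : b 0 0 + b 1 1 = b' 0 0 + b' 1 1) : b = b' := by
  apply sl_ext
  · apply mul_left_cancel₀ hF
    linear_combination h3 - h3' + h4
  · rw [h1, h1']
  · rw [h2, h2']
  · apply mul_left_cancel₀ hF
    linear_combination -h3 + h3' + h4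

theorem commute_of_commute {a b b' : SS} (ha : (a 0 0 + a 1 1) ^ 2 ≠ 4) (h : Commute b a) (h' : Commute b' a) :
    b * b' = b' * b := by
  obtain ⟨s, h1, h2, h3⟩ := exists_slope ha h
  obtain ⟨s', h1', h2', h3'⟩ := exists_slope ha h'
  have e1 : b 0 0 = b 1 1 + s * (a 0 0 - a 1 1) := by linear_combination h3
  have e1' : b' 0 0 = b' 1 1 + s' * (a 0 0 - a 1 1) := by linear_combination h3'
  apply sl_ext <;> simp only [sl_mul_apply, h1, h2, e1, h1', h2', e1'] <;> ring

theorem eq_or_eq_inv {a b : SS} (hF : (2 : F) ≠ 0) (ha : (a 0 0 + a 1 1) ^ 2 ≠ 4) (h : Commute b a)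
    (ht : b 0 0 + b 1 1 = a 0 0 + a 1 1) : b = a ∨ b = a⁻¹ := by
  obtain ⟨s, h1, h2, h3⟩ := exists_slope ha h
  have h4 := slope_rel h1 h2 h3
  rw [ht] at h4
  have h5 : (s ^ 2 - 1) * ((a 0 0 + a 1 1) ^ 2 - 4) = 0 := by linear_combination -h4
  have h6 : s ^ 2 - 1 = 0 := (mul_eq_zero.1 h5).resolve_right (sub_ne_zero.2 ha)
  have h7 : (s - 1) * (s + 1) = 0 := by linear_combination h6
  rcases mul_eq_zero.1 h7 with h8 | h8
  · left
    have h9 : s = 1 := sub_eq_zero.1 h8
    subst h9
    apply eq_of_slope hF h1 h2 h3 (by ring) (by ring) (by ring) ht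
  · right
    have h9 : s = -1 := eq_neg_of_add_eq_zero_left h8
    subst h9
    rw [eq_inv_iff_mul_eq_one]
    have hda := det_eq a
    have e1 : b 0 0 = a 1 1 := by
      apply mul_left_cancel₀ hF
      linear_combination h3 + ht
    have e2 : b 1 1 = a 0 0 := by
      apply mul_left_cancel₀ hF
      linear_combination -h3 + ht
    apply sl_ext
    · simp only [sl_mul_apply, sl_one_apply, h1, e1]
      simp
      linear_combination hda
    · simp only [sl_mul_apply, sl_one_apply, h1, e1]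
      simp
      ring
    · simp only [sl_mul_apply, sl_one_apply, h2, e2]
      simp
      ring
    · simp only [sl_mul_apply, sl_one_apply, h2, e2]
      simp
      linear_combination hda

/-- the centralizer of a noncentral semisimple element has at most `2q` elements -/
theorem card_centralizer_le {a : SS} (hF : (2 : F) ≠ 0) (ha : (a 0 0 + a 1 1) ^ 2 ≠ 4) :
    Nat.card {b : SS // Commute b a} ≤ 2 * Nat.card F := by
  classical
  have := Fintype.ofFinite F
  have := Fintype.ofFinite {b : SS // Commute b a}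
  have hs : ∀ b : {b : SS // Commute b a}, ∃ s : F, (b : SS) 0 1 = s * a 0 1 ∧ (b : SS) 1 0 = s * a 1 0 ∧
      (b : SS) 0 0 - (b : SS) 1 1 = s * (a 0 0 - a 1 1) := fun b => exists_slope ha b.2
  choose f hf1 hf2 hf3 using hs
  rw [Nat.card_eq_fintype_card, Nat.card_eq_fintype_card, ← Finset.card_univ, ← Finset.card_univ]
  refine Finset.card_le_mul_card_image_of_maps_to (f := f) (fun _ _ => Finset.mem_univ _) 2 ?_
  intro s _
  have h1 : Finset.card (Finset.univ.filter fun b => f b = s) ≤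
      Finset.card (Polynomial.nthRoots 2 (s ^ 2 * ((a 0 0 + a 1 1) ^ 2 - 4) + 4)).toFinset := by
    refine Finset.card_le_card_of_injOn (fun b => (b : SS) 0 0 + (b : SS) 1 1) ?_ ?_
    · intro b hb
      rw [Finset.mem_coe, Finset.mem_filter] at hb
      rw [Finset.mem_coe, Multiset.mem_toFinset, Polynomial.mem_nthRoots (by norm_num)]
      rw [← hb.2]
      exact slope_rel (hf1 b) (hf2 b) (hf3 b)
    · intro b hb b' hb' h
      rw [Finset.mem_coe, Finset.mem_filter] at hb hb'
      apply Subtype.ext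
      have e1 := hf1 b'
      have e2 := hf2 b'
      have e3 := hf3 b'
      rw [hb'.2, ← hb.2] at e1 e2 e3
      exact eq_of_slope hF (hf1 b) (hf2 b) (hf3 b) e1 e2 e3 h
  refine h1.trans ((Multiset.toFinset_card_le _).trans (Polynomial.card_nthRoots 2 _))

/-- **the semisimple case** -/
theorem torus_case {a : SS} (hF : (2 : F) ≠ 0) (ha : (a 0 0 + a 1 1) ^ 2 ≠ 4) {R : Subgroup SS}
    (h : ∀ g ∈ R, Commute (g * a * g⁻¹) a) : Group.IsSolvable R ∧ Nat.card R ≤ 4 * Nat.card F := by
  classical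
  have key : ∀ g : R, (g : SS) * a * (g : SS)⁻¹ = a ∨ (g : SS) * a * (g : SS)⁻¹ = a⁻¹ := fun g =>
    eq_or_eq_inv hF ha (h g g.2) (trc_conj _ _)
  constructor
  · let f : R →* ℤˣ :=
      { toFun := fun g => if (g : SS) * a * (g : SS)⁻¹ = a then 1 else -1
        map_one' := by simp
        map_mul' := by
          intro g g'
          have e : ((g * g' : R) : SS) * a * ((g * g' : R) : SS)⁻¹ =
              (g : SS) * ((g' : SS) * a * (g' : SS)⁻¹) * (g : SS)⁻¹ := by
            rw [Subgroup.coe_mul]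
            group
          simp only [e]
          by_cases h2 : (g' : SS) * a * (g' : SS)⁻¹ = a
          · rw [h2, if_pos rfl, mul_one]
          · have h3 := (key g').resolve_left h2
            have hne : a⁻¹ ≠ a := fun h4 => h2 (h3.trans h4)
            have e2 : (g : SS) * a⁻¹ * (g : SS)⁻¹ = ((g : SS) * a * (g : SS)⁻¹)⁻¹ := by group
            rw [h3, e2, if_neg hne]
            rcases key g with h4 | h4
            · rw [h4, if_neg hne, if_pos rfl, one_mul]
            · rw [h4, inv_inv, if_pos rfl, if_neg hne]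
              simp }
    have hk : ∀ g : f.ker, Commute ((g : R) : SS) a := by
      intro g
      have h1 : (if ((g : R) : SS) * a * ((g : R) : SS)⁻¹ = a then (1 : ℤˣ) else -1) = 1 := (MonoidHom.mem_ker).1 g.2
      by_cases h2 : ((g : R) : SS) * a * ((g : R) : SS)⁻¹ = a
      · exact mul_inv_eq_iff_eq_mul.1 h2
      · rw [if_neg h2] at h1
        exact absurd h1 (by decide)
    have h1 : Group.IsSolvable f.ker := Group.isSolvable_of_comm fun x y => by
      apply Subtype.ext
      apply Subtype.ext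
      exact commute_of_commute ha (hk x) (hk y)
    exact Group.isSolvable_of_ker_le_range f.ker.subtype f (by rw [Subgroup.range_subtype])
  · have := Fintype.ofFinite R
    rw [Nat.card_eq_fintype_card, ← Finset.card_univ]
    have h1 : (Finset.univ : Finset R).card ≤ (2 * Nat.card F) * ({a, a⁻¹} : Finset SS).card := by
      refine Finset.card_le_mul_card_image_of_maps_to (f := fun g : R => (g : SS) * a * (g : SS)⁻¹) ?_ _ ?_
      · intro g _
        rw [Finset.mem_insert, Finset.mem_singleton]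
        exact key g
      · intro c _
        by_cases hne : (Finset.univ.filter fun g : R => (g : SS) * a * (g : SS)⁻¹ = c).Nonempty
        · obtain ⟨g0, hg0⟩ := hne
          rw [Finset.mem_filter] at hg0
          refine le_trans ?_ (card_centralizer_le hF ha)
          have := Fintype.ofFinite {b : SS // Commute b a}
          rw [Nat.card_eq_fintype_card, ← Fintype.card_coe]
          refine Fintype.card_le_of_injective (fun g => ⟨(g0 : SS)⁻¹ * ((g : R) : SS), ?_⟩) ?_
          · have h2 := (Finset.mem_filter.1 g.2).2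
            have h3 : ((g : R) : SS) * a * ((g : R) : SS)⁻¹ = (g0 : SS) * a * (g0 : SS)⁻¹ := h2.trans hg0.2.symm
            have h4 : ((g : R) : SS) * a = (g0 : SS) * a * (g0 : SS)⁻¹ * ((g : R) : SS) := by
              rw [← h3]
              group
            show (g0 : SS)⁻¹ * ((g : R) : SS) * a = a * ((g0 : SS)⁻¹ * ((g : R) : SS))
            rw [mul_assoc, h4]
            group
          · intro x y hxy
            have h2 := congrArg Subtype.val hxy
            have h3 : (g0 : SS)⁻¹ * ((x : R) : SS) = (g0 : SS)⁻¹ * ((y : R) : SS) := h2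
            exact Subtype.ext (Subtype.ext (mul_left_cancel h3))
        · rw [Finset.not_nonempty_iff_eq_empty] at hne
          rw [hne]
          simp
    have h2 : ({a, a⁻¹} : Finset SS).card ≤ 2 := Finset.card_le_two
    calc _ ≤ (2 * Nat.card F) * ({a, a⁻¹} : Finset SS).card := h1
      _ ≤ (2 * Nat.card F) * 2 := Nat.mul_le_mul_left _ h2
      _ = 4 * Nat.card F := by ring

end SL

end Cfsg.Agent.H94.IF
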